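import Cfsg.Agent.Lib.TVn.Def
import Cfsg.Agent.Lib.Dim3.KBase

/-!
# Transvection groups: two opposite root groups
-/

set_option autoImplicit false

namespace Cfsg.Lib.TVn

open scoped MatrixGroups Matrix commutatorElement
open Cfsg.Geo Cfsg.Lib.Asch Cfsg.Lib.Linear Module Matrix

variable {ι : Type} [Fintype ι] [DecidableEq ι] {F : Type*} [Field F] {P : Subgroup (GL ι F)}
  {k : Subfield F}

theorem pair_one {v φ : ι → F} (h : Tv P v φ) : (1 : F) ∈ root P v φ := by simpa [mem_root] using h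

theorem pair_four [Finite F] {v φ : ι → F} (h : Tv P v φ) {c : F} (h0 : c ≠ 0)
    (h1 : c ≠ 1) (h2 : c ≠ -1) (hc : Tv P v (c • φ)) : 4 ≤ Nat.card (root P v φ) := by
  classical
  have o1 := pair_one h
  have : ({0, 1, c, c + 1} : Finset F).card = 4 := by
    rw [Finset.card_insert_of_notMem, Finset.card_insert_of_notMem, Finset.card_pair] <;>
      simp [h0, h0.symm, h1.symm, eq_comm (a := (0 : F)), add_eq_zero_iff_eq_neg, h2]
  rw [← this, ← Set.ncard_coe_finset]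
  refine Set.ncard_le_ncard (t := (root P v φ : Set F)) ?_
  intro x hx
  simp only [Finset.coe_insert, Finset.coe_singleton, Set.mem_insert_iff,
    Set.mem_singleton_iff] at hx
  rcases hx with rfl | rfl | rfl | rfl
  exacts [zero_mem _, o1, hc, add_mem hc o1]

open Cfsg.Lib.PSL2 in
theorem pair_tau [Finite F] (h3 : (3 : F) = 0) {g : PGL(2, F)} (h : g ^ 2 = 1 ∨ g ^ 3 = 1 ∨ g ^ 5 = 1) :
    tau g = 0 ∨ tau g = 1 ∨ tau g ^ 2 = -1 := by
  have key : tau g * ((tau g - 1) ^ 2 * (tau g ^ 2 + 1)) = 0 := by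
    have a := tau_mul_self g
    rcases h with h | h | h
    · rw [← pow_two, h, tau_one] at a
      linear_combination (-(tau g - 1) * (tau g ^ 2 + 1)) * a + (tau g * (tau g - 1) * (tau g ^ 2 + 1)) * h3
    · rw [show g * g = g⁻¹ from eq_inv_of_mul_eq_one_left (by rw [← h, pow_succ, pow_two]), tau_inv] at a
      linear_combination (-tau g * (tau g ^ 2 + 1)) * a + (tau g * (tau g - 1) * (tau g ^ 2 + 1)) * h3
    · have b := tau_mul_self (g * g)
      rw [show g * g * (g * g) = g⁻¹ from eq_inv_of_mul_eq_one_left (by rw [← h]; simp only [pow_succ, pow_zero, one_mul, mul_assoc]), tau_inv, a] at b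
      linear_combination (-tau g) * b + (tau g * (tau g - 1) * (tau g ^ 2 + 1) +
        tau g ^ 2 * (tau g - 1) * (tau g - 4)) * h3
  rcases mul_eq_zero.1 key with e | e
  · exact .inl e
  rcases mul_eq_zero.1 e with e | e
  · exact .inr (.inl (sub_eq_zero.1 (pow_eq_zero_iff two_ne_zero |>.1 e)))
  · exact .inr (.inr (eq_neg_of_add_eq_zero_left e))

theorem pair_five (h3 : (3 : F) = 0) {τ : F} (h1 : (2 + τ) ^ 2 = 0 ∨ (2 + τ) ^ 2 = 1 ∨ ((2 + τ) ^ 2) ^ 2 = -1)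
    (h2 : (2 - τ) ^ 2 = 0 ∨ (2 - τ) ^ 2 = 1 ∨ ((2 - τ) ^ 2) ^ 2 = -1) : τ ^ 5 = τ := by
  rcases h1 with e | e | e
  · obtain rfl : τ = -2 := by linear_combination pow_eq_zero_iff two_ne_zero |>.1 e
    linear_combination (-10) * h3
  · rcases mul_eq_zero.1 (show (τ + 1) * (τ + 3) = 0 by linear_combination e) with e | e
    · obtain rfl := eq_neg_of_add_eq_zero_left e
      ring
    · obtain rfl := eq_neg_of_add_eq_zero_left e
      linear_combination (-80) * h3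
  rcases h2 with e' | e' | e'
  · obtain rfl : τ = 2 := by linear_combination -(pow_eq_zero_iff two_ne_zero |>.1 e')
    linear_combination 10 * h3
  · rcases mul_eq_zero.1 (show (τ - 1) * (τ - 3) = 0 by linear_combination e') with e' | e'
    · obtain rfl := sub_eq_zero.1 e'
      ring
    · obtain rfl := sub_eq_zero.1 e'
      linear_combination 80 * h3
  · linear_combination (τ ^ 2 - 1) * (e - e') - (τ ^ 2 - 1) * (5 * τ ^ 3 + 21 * τ) * h3

open Cfsg.Lib.PSL2 in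
/-- Port of `Dim3.pair`, with `ι := (emb A B _).comp toGL`, `A` with columns `v`, `(φ u)⁻¹ u` and `B` with
rows `(ψ v)⁻¹ ψ`, `φ`.  Dihedral case: three elements of the root group give the contradiction of
`Dim3.pair`.  Case `A₅` (`p = 3`): the root group has order `3` (order `9` does not divide `60`);
for `s ∈ SL₂` mapping into `A₅`, `s², s³` or `s⁵` is `± 1`, so `t = trace s` has `t² ∈ {0, 1}` or `t⁴ = -1`
(`s⁵ = (t⁴ - 3 t² + 1) s - (t³ - 2 t)`, a scalar `s` has `t² = 4 = 1`).  Apply this to `t = 2 ± τ`,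
`τ = φ(u) ψ(v)`: if `τ ∉ {0, 1, -1}` then `(τ + 1)²`, `(τ - 1)²` are square roots of `-1` with difference
`4 τ = τ ≠ 0`, so `τ² = -1`. -/
theorem pair [Finite F] {v φ u ψ : ι → F} (h1 : Tv P v φ) (h2 : Tv P u ψ) (ha : φ ⬝ᵥ u ≠ 0)
    (hb : ψ ⬝ᵥ v ≠ 0) :
    (∃ k : Subfield F, Nat.card k = Nat.card (root P v φ) ∧
      ∀ a ∈ root P v φ, ∀ b ∈ root P u ψ, a * b * (φ ⬝ᵥ u) * (ψ ⬝ᵥ v) ∈ k) ∨
    ((2 : F) = 0 ∧ Nat.card (root P v φ) ≤ 2) ∨
    ((3 : F) = 0 ∧ Nat.card (root P v φ) ≤ 3 ∧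
      ((φ ⬝ᵥ u) * (ψ ⬝ᵥ v)) ^ 5 = (φ ⬝ᵥ u) * (ψ ⬝ᵥ v)) := by
  obtain ⟨p, _⟩ := CharP.exists F
  haveI : Fact p.Prime := ⟨CharP.char_is_prime F p⟩
  have d1 := h1.dot
  have d2 := h2.dot
  generalize hl : φ ⬝ᵥ u = l at ha
  generalize hm : ψ ⬝ᵥ v = m at hb
  let A : Matrix ι (Fin 2) F := Matrix.of fun i j => ![v, l⁻¹ • u] j i
  let B : Matrix (Fin 2) ι F := Matrix.of ![m⁻¹ • ψ, φ]
  have hBA : B * A = 1 := by
    have : B * A = !![(m⁻¹ • ψ) ⬝ᵥ v, (m⁻¹ • ψ) ⬝ᵥ (l⁻¹ • u); φ ⬝ᵥ v, φ ⬝ᵥ (l⁻¹ • u)] := by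
      ext i j; fin_cases i <;> fin_cases j <;> rfl
    rw [this, one_fin_two]
    simp [d1, d2, hl, hm, ha, hb]
  let ι' : SL(2, F) →* GL ι F := (emb A B hBA).comp SpecialLinearGroup.toGL
  have up : ∀ a, ι' (Dim3.upS a) = tvGL v (a • φ) (by simp [d1]) := fun a => Units.ext (by
    change 1 + A * (!![1, a; 0, 1] - 1) * B = 1 + vecMulVec v (a • φ)
    congr 1
    ext i j
    simp [A, B, mul_apply, Fin.sum_univ_succ, vecMulVec_apply]
    ring)
  have lo : ∀ b, ι' (Dim3.loS (b * l * m)) = tvGL u (b • ψ) (by simp [d2]) := fun b => Units.ext (by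
    change 1 + A * (!![1, 0; b * l * m, 1] - 1) * B = 1 + vecMulVec u (b • ψ)
    congr 1
    ext i j
    simp [A, B, mul_apply, Fin.sum_univ_succ, vecMulVec_apply]
    field_simp)
  let G := P.comap ι'
  let H := G.map SpecialLinearGroup.toPGL
  have hup : ∀ a, Dim3.upS a ∈ G ↔ a ∈ root P v φ := fun a => by
    rw [Subgroup.mem_comap, up]
    exact ⟨fun h => ⟨_, h⟩, fun h => h.2⟩
  have hlo : ∀ b ∈ root P u ψ, Dim3.loS (b * l * m) ∈ G := fun b hb => by
    rw [Subgroup.mem_comap, lo]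
    exact hb.2
  have ht : transl H = root P v φ := by
    ext a
    rw [mem_transl, ← hup]
    exact ⟨Dim3.upS_mem p, fun h => ⟨_, h, Dim3.toPGL_upS a⟩⟩
  have hc : Nat.card ↥(H ⊓ unip inf) = Nat.card (root P v φ) := by rw [← card_transl, ht]
  have o1 := pair_one h1
  have o2 := pair_one h2
  have hx : H ⊓ unip inf ≠ ⊥ := fun e => by
    have : aff 1 (1 : F) ∈ H ⊓ unip inf :=
      ⟨mem_transl.1 (ht ▸ o1), aff_mem_unip_inf.2 rfl⟩
    rw [e, Subgroup.mem_bot, aff_eq_one_iff] at this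
    exact one_ne_zero this.2
  have trc : ∀ a b : F, (Dim3.upS a * Dim3.loS (b * l * m)).1.trace = 2 + a * b * l * m := fun a b => by
    change trace (!![1, a; 0, 1] * !![1, 0; b * l * m, 1]) = _
    simp [trace_fin_two]
    ring
  rcases dickson_pgl_unip (AlgebraicClosure F) p H hx with h | ⟨rfl, a, b, n, hab, h⟩ |
    ⟨rfl, ⟨e⟩⟩ | ⟨k, c, -, hk, h⟩
  · have := h ⟨_, hlo 1 o2, rfl⟩
    rw [MulAction.mem_stabilizer_iff] at this
    have := (gl_smul_inf_eq_inf _).1 ((pgl_mk_smul _ _).symm.trans this)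
    exact (mul_ne_zero (mul_ne_zero one_ne_zero ha) hb this).elim
  · refine .inr (.inl ⟨CharTwo.two_eq_zero, le_of_not_gt fun h4 => ?_⟩)
    have sw : ∀ c ∈ root P v φ, c ≠ 0 → toK (AlgebraicClosure F) (aff 1 c) • a = b ∧
        toK (AlgebraicClosure F) (aff 1 c) • b = a := fun c hc h0 => by
      refine (mem_dih.1 (h (mem_transl.1 (ht ▸ hc)))).resolve_left fun ⟨f1, f2⟩ => hab.ne ?_
      have u1 : toK (AlgebraicClosure F) (aff 1 c) ∈ unip inf := by
        rw [← emb_inf (algebraMap F _), pglMap_mem_unip_iff]; exact aff_mem_unip_inf.2 rfl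
      have u2 : toK (AlgebraicClosure F) (aff 1 c) ≠ 1 := fun e =>
        h0 (aff_eq_one_iff.1 (toK_injective (e.trans (map_one _).symm))).2
      rw [eq_of_mem_unip u1 u2 f1, eq_of_mem_unip u1 u2 f2]
    obtain ⟨c, hc0, hc1⟩ : ∃ c : root P v φ, c ≠ 0 ∧ c ≠ ⟨1, o1⟩ := by
      letI := Fintype.ofFinite (root P v φ)
      rw [Nat.card_eq_fintype_card] at h4
      obtain ⟨x, y, z, a1, a2, a3⟩ := Fintype.two_lt_card_iff.1 h4
      by_contra hn
      push Not at hn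
      by_cases b1 : x = 0
      · exact a3 ((hn y fun e => a1 (b1.trans e.symm)).trans (hn z fun e => a2 (b1.trans e.symm)).symm)
      · by_cases b2 : y = 0
        · exact a2 ((hn x b1).trans (hn z fun e => a3 (b2.trans e.symm)).symm)
        · exact a1 ((hn x b1).trans (hn y b2).symm)
    have s1 := sw 1 o1 one_ne_zero
    have s2 := sw c c.2 fun e => hc0 (Subtype.ext e)
    have s3 := sw (1 - c) (sub_mem o1 c.2) fun e => hc1 (Subtype.ext (sub_eq_zero.1 e).symm)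
    have : aff (1 : Fˣ) (1 : F) = aff 1 (1 - c.1) * aff 1 c.1 := by rw [aff_mul]; simp
    rw [this, map_mul, mul_smul, s2.1, s3.2] at s1
    exact (hab.ne s1.1).elim
  · have h3 : (3 : F) = 0 := by simpa using CharP.cast_eq_zero F 3
    refine .inr (.inr ⟨h3, le_of_not_gt fun h4 => ?_, ?_⟩)
    · have h60 : Nat.card H = 60 := (Nat.card_congr e.toEquiv).trans card_alt_five
      obtain ⟨n, hn⟩ := IsPGroup.iff_card.1 (isPGroup_inf_unip 3 H inf)
      have hd := Subgroup.card_dvd_of_le (inf_le_left : H ⊓ unip inf ≤ H)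
      rw [h60, hn] at hd
      rw [← hc, hn] at h4
      have : 2 ≤ n := by
        by_contra hn
        interval_cases n <;> omega
      exact absurd ((pow_dvd_pow 3 this).trans hd) (by norm_num)
    · have a5 : ∀ g : alternatingGroup (Fin 5), g ^ 2 = 1 ∨ g ^ 3 = 1 ∨ g ^ 5 = 1 := by decide +kernel
      have key : ∀ s ∈ G, s.1.trace ^ 2 = 0 ∨ s.1.trace ^ 2 = 1 ∨ (s.1.trace ^ 2) ^ 2 = -1 := fun s hs => by
        rw [← tau_toPGL]
        have pw : ∀ n : ℕ, e ⟨_, s, hs, rfl⟩ ^ n = 1 → SpecialLinearGroup.toPGL s ^ n = 1 := fun n q =>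
          congrArg Subtype.val (e.injective (a₂ := 1) (by rw [map_one, ← q, ← map_pow]) :
            (⟨_, s, hs, rfl⟩ : H) ^ n = 1)
        exact pair_tau h3 ((a5 _).imp (pw 2) (Or.imp (pw 3) (pw 5)))
      have k1 := key _ (G.mul_mem ((hup 1).2 o1) (hlo 1 o2))
      have k2 := key _ (G.mul_mem ((hup (-1)).2 (neg_mem o1)) (hlo 1 o2))
      rw [trc] at k1 k2
      exact pair_five h3 (by simpa only [one_mul] using k1)
        (by simpa only [one_mul, mul_one, neg_mul, sub_eq_add_neg] using k2)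
  · have key : ∀ s ∈ G, s.1.trace ^ 2 ∈ k := fun s hs => by
      have : SpecialLinearGroup.toPGL s ∈ (pglMap k.subtype).range.map
          (MulAut.conj c).toMonoidHom := by
        have hs' : SpecialLinearGroup.toPGL s ∈ H := ⟨s, hs, rfl⟩
        rcases h with h | h <;> rw [h] at hs'
        · exact Subgroup.map_mono (Subgroup.map_le_range _ _) hs'
        · exact hs'
      obtain ⟨_, ⟨y, rfl⟩, hy⟩ := this
      rw [← tau_toPGL, ← hy]
      change tau (c * _ * c⁻¹) ∈ k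
      rw [tau_conj, tau_pglMap]
      exact (tau y).2
    have tr : ∀ a ∈ root P v φ, ∀ b ∈ root P u ψ, 4 * (a * b * l * m) + (a * b * l * m) ^ 2 ∈ k :=
      fun a ha b hb => by
        have := k.sub_mem (key _ (G.mul_mem ((hup a).2 ha) (hlo b hb))) (natCast_mem k 4)
        rw [trc] at this
        convert this using 1
        push_cast
        ring
    refine .inl ⟨k, hk.trans hc, fun a ha b hb => Dim3.mem_of_sq_mem (tr a ha b hb) ?_⟩
    convert tr _ (neg_mem ha) b hb using 1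
    ring

open Cfsg.Lib.PSL2 in
/-- Choose `(v₀, φ₀)` with the largest root group, of order `r`.  If `r ≥ 4`, port
`Dim3.QS.exists_fam` (opposite flags from `Fam0.mid` for `k = ⊥`: prove it here through `fl_bot`,
`Hyp.fam0` and the hypothesis `hm`).  If `r ≤ 3` then `p ≤ 3`; for `p = 2`, `r = 2`; for `p = 3` all root
groups have order `3` and `pair` gives `τ ∈ k` with `|k| = 3` (so `τ³ = τ`) or `τ⁵ = τ`. -/
theorem Hyp.exists_fam [Finite F] (h : Hyp P)
    (hm : ∀ {k : Subfield F}, Fam0 P k → ∀ {v χ : ι → F}, v ≠ 0 → χ ≠ 0 →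
      ∃ x ξ, Fl P k x ξ ∧ ξ ⬝ᵥ v ≠ 0 ∧ χ ⬝ᵥ x ≠ 0)
    {v φ : ι → F} (hv : v ≠ 0) (hφ : φ ≠ 0) (ht : Tv P v φ) :
    (∃ k : Subfield F, 3 ≤ Nat.card k ∧ Fam P k) ∨ ((2 : F) = 0 ∧ R2 P) ∨
    ((3 : F) = 0 ∧ ∀ {v φ u ψ : ι → F}, Tv P v φ → Tv P u ψ →
      ((φ ⬝ᵥ u) * (ψ ⬝ᵥ v)) ^ 5 = (φ ⬝ᵥ u) * (ψ ⬝ᵥ v)) := by
  obtain ⟨⟨v₀, φ₀⟩, ⟨hv₀, hφ₀, ht₀⟩, hx⟩ := Set.exists_max_image
    {x : (ι → F) × (ι → F) | x.1 ≠ 0 ∧ x.2 ≠ 0 ∧ Tv P x.1 x.2}
    (fun x => Nat.card (root P x.1 x.2)) (Set.toFinite _) ⟨(v, φ), hv, hφ, ht⟩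
  simp only at hv₀ hφ₀ ht₀ hx
  by_cases h4 : 4 ≤ Nat.card (root P v₀ φ₀)
  · have pr : ∀ {v φ u ψ : ι → F}, Tv P v φ → Tv P u ψ → φ ⬝ᵥ u ≠ 0 → ψ ⬝ᵥ v ≠ 0 → 4 ≤ Nat.card (root P v φ) →
        ∃ k : Subfield F, Nat.card k = Nat.card (root P v φ) ∧
          ∀ a ∈ root P v φ, ∀ b ∈ root P u ψ, a * b * (φ ⬝ᵥ u) * (ψ ⬝ᵥ v) ∈ k := fun a b c d e => by
      rcases pair a b c d with q | ⟨-, q⟩ | ⟨-, q, -⟩
      · exact q
      · omega
      · omega
    obtain ⟨u, ψ, f1, e2, e1⟩ := hm (h.fam0 (fl_bot hv₀ hφ₀ ht₀)) hv₀ hφ₀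
    obtain ⟨k, hk, hk'⟩ := pr ht₀ f1.tv e1 e2 h4
    have f2 : Fl P k v₀ ((φ₀ ⬝ᵥ u * ψ ⬝ᵥ v₀)⁻¹ • φ₀) := by
      have hl := mul_ne_zero e1 e2
      refine ⟨hv₀, smul_ne_zero (inv_ne_zero hl) hφ₀, fun c hc => ?_⟩
      let f : root P v₀ φ₀ → k := fun a => ⟨_, hk' a a.2 1 (pair_one f1.tv)⟩
      have hf : Function.Injective f := fun a b e => Subtype.ext (by
        have := congrArg Subtype.val e
        simpa [f, e1, e2] using this)
      obtain ⟨a, ha⟩ := (hf.bijective_of_nat_card_le hk.le).2 ⟨c, hc⟩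
      have := congrArg Subtype.val ha
      simp only [f, mul_one] at this
      rw [smul_smul, ← this, mul_assoc a.1, mul_inv_cancel_right₀ hl]
      exact a.2
    refine .inl ⟨k, by omega, h.fam0 f2, fun {x ξ y η} fx fy => ?_⟩
    by_cases a1 : ξ ⬝ᵥ y = 0
    · simp [a1]
    by_cases a2 : η ⬝ᵥ x = 0
    · simp [a2]
    have c1 : Nat.card (root P x ξ) = Nat.card k := le_antisymm
      ((hx (x, ξ) ⟨fx.1, fx.2.1, fx.tv⟩).trans hk.ge)
      (Set.ncard_le_ncard (s := (k : Set F)) (t := (root P x ξ : Set F)) fx.2.2)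
    obtain ⟨k', h1, h2⟩ := pr fx.tv fy.tv a1 a2 (by rwa [c1, hk])
    have := h2 1 (pair_one fx.tv) 1 (pair_one fy.tv)
    rw [mem_subfield_iff_pow_card, h1, c1, ← mem_subfield_iff_pow_card] at this
    simpa using this
  have h3 : ∀ {v φ : ι → F}, v ≠ 0 → φ ≠ 0 → Tv P v φ → Nat.card (root P v φ) ≤ 3 := fun {v φ} a b c => by
    have := hx (v, φ) ⟨a, b, c⟩
    simp only at this
    omega
  by_cases c2 : (2 : F) = 0
  · refine .inr (.inl ⟨c2, fun {v φ c} a b t t' => by_contra fun n => ?_⟩)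
    have := pair_four t (fun e => n (.inl e)) (fun e => n (.inr e))
      (fun e => n (.inr (by linear_combination e - c2))) t'
    have := h3 a b t
    omega
  by_cases c3 : (3 : F) = 0
  swap
  · exact absurd (pair_four ht₀ c2 (fun e => one_ne_zero (α := F) (by linear_combination e))
      (fun e => c3 (by linear_combination e)) (by rw [two_smul]; exact ht₀.add_right ht₀)) h4
  refine .inr (.inr ⟨c3, fun {v φ u ψ} t t' => ?_⟩)
  by_cases a1 : φ ⬝ᵥ u = 0
  · simp [a1]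
  by_cases a2 : ψ ⬝ᵥ v = 0
  · simp [a2]
  rcases pair t t' a1 a2 with ⟨k, q1, q2⟩ | ⟨q, -⟩ | ⟨-, -, q⟩
  · have b1 := h3 (fun e => a2 (by simp [e])) (fun e => a1 (by simp [e])) t
    have b2 := two_le_card_field k
    have b3 := q2 1 (pair_one t) 1 (pair_one t')
    rw [one_mul, one_mul, mem_subfield_iff_pow_card] at b3
    generalize φ ⬝ᵥ u * ψ ⬝ᵥ v = τ at b3
    obtain e | e : Nat.card k = 2 ∨ Nat.card k = 3 := by omega
    · rw [e] at b3
      linear_combination (τ ^ 3 + τ ^ 2 + τ + 1) * b3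
    · rw [e] at b3
      linear_combination (τ ^ 2 + 1) * b3
  · exact absurd q c2
  · exact q

end Cfsg.Lib.TVn
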