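import Cfsg.Agent.Lib.Asch.Adjs
import Cfsg.Agent.Lib.Linear.MaxSub

/-!
# Irreducible groups containing transvections: definitions

A *flag* is a pair `(v, φ)` of non-zero vectors with `1 + c v φ ∈ P` for all `c` in a subfield `k`.
-/

set_option autoImplicit false

namespace Cfsg.Lib.TVn

open scoped MatrixGroups Matrix commutatorElement
open Cfsg.Geo Cfsg.Lib.Asch Cfsg.Lib.Linear Module Matrix

variable {ι : Type} [Fintype ι] [DecidableEq ι] {F : Type*} [Field F] {P : Subgroup (GL ι F)}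

/-- Irreducibility, in a self-dual form. -/
def Ir (P : Subgroup (GL ι F)) : Prop :=
  ∀ v φ : ι → F, v ≠ 0 → φ ≠ 0 → ∃ g ∈ P, φ ⬝ᵥ (g.1 *ᵥ v) ≠ 0

/-- The traces generate `F`. -/
def TrTop (P : Subgroup (GL ι F)) : Prop :=
  ∀ M : Subfield F, (∀ g ∈ P, g.1.trace ∈ M) → M = ⊤

/-- Real traces. -/
def Re (P : Subgroup (GL ι F)) : Prop := ∀ x ∈ P, (x⁻¹).1.trace = x.1.trace

/-- `P` is the special unitary group of a hermitian form. -/
def IsSU (P : Subgroup (GL ι F)) : Prop :=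
  ∃ (σ : F →+* F) (q : ℕ) (f : (ι → F) → (ι → F) → F), Unitary.IsBar q σ ∧ SForm σ 1 f ∧
    P = iso f ⊓ specialLinear ι F

/-- The standing hypotheses. -/
structure Hyp (P : Subgroup (GL ι F)) : Prop where
  env : env P = ⊤
  sl : P ≤ specialLinear ι F
  perf : ⁅P, P⁆ = P
  nrm : ∀ N ≤ P, (∀ g ∈ P, ∀ x ∈ N, g * x * g⁻¹ ∈ N) → ¬ N ≤ scalars ι F → P ≤ N
  top : TrTop P

theorem ir_of_env (he : env P = ⊤) : Ir P := fun v φ hv hφ => by
  by_contra hn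
  push Not at hn
  have key : ∀ X ∈ Submodule.span F (matrixSet P), φ ⬝ᵥ (X *ᵥ v) = 0 := fun X hX => by
    induction hX using Submodule.span_induction with
    | mem x hx => obtain ⟨g, hg, rfl⟩ := hx; exact hn g hg
    | zero => simp
    | add x y _ _ hx hy => rw [add_mulVec, dotProduct_add, hx, hy, add_zero]
    | smul c x _ hx => rw [smul_mulVec, dotProduct_smul, hx, smul_zero]
  obtain ⟨w, hw⟩ := exists_dot_eq_one hφ
  obtain ⟨X, rfl⟩ := exists_mulVec_eq hv w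
  rw [dotProduct_comm, key X (by rw [span_eq_top_of_adjoin he]; trivial)] at hw
  exact zero_ne_one hw

theorem Ir.eq_top (h : Ir P) (W : Submodule F (ι → F)) (h0 : W ≠ ⊥)
    (hW : ∀ g ∈ P, ∀ w ∈ W, g.1 *ᵥ w ∈ W) : W = ⊤ := by
  obtain ⟨w, hw, hw0⟩ := (Submodule.ne_bot_iff W).1 h0
  refine eq_top_iff.2 fun v _ => by_contra fun hv => ?_
  obtain ⟨φ, h1, h2⟩ := exists_dot_of_notMem hv
  obtain ⟨g, hg, e⟩ := h w φ hw0 fun e => by simp [e] at h2
  exact e (h1 _ (hW g hg w hw))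

theorem Ir.eq_top' (h : Ir P) (W : Submodule F (ι → F)) (h0 : W ≠ ⊥)
    (hW : ∀ g ∈ P, ∀ w ∈ W, w ᵥ* g.1 ∈ W) : W = ⊤ := by
  obtain ⟨w, hw, hw0⟩ := (Submodule.ne_bot_iff W).1 h0
  refine eq_top_iff.2 fun v _ => by_contra fun hv => ?_
  obtain ⟨φ, h1, h2⟩ := exists_dot_of_notMem hv
  obtain ⟨g, hg, e⟩ := h φ w (fun e => by simp [e] at h2) hw0
  rw [dotProduct_mulVec, dotProduct_comm] at e
  exact e (h1 _ (hW g hg w hw))

theorem vecMul_inv_ne_zero (g : GL ι F) {φ : ι → F} (hφ : φ ≠ 0) : φ ᵥ* (g⁻¹).1 ≠ 0 :=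
  fun e => hφ (by simpa using congrArg (· ᵥ* g.1) e)

/-- The root group of `(v, φ)`. -/
def root (P : Subgroup (GL ι F)) (v φ : ι → F) : AddSubgroup F where
  carrier := {c | Tv P v (c • φ)}
  zero_mem' := by simpa using Tv.zero_right P v
  add_mem' ha hb := by simpa [add_smul] using Tv.add_right ha hb
  neg_mem' ha := by simpa using Tv.neg_right ha

theorem mem_root {v φ : ι → F} {c : F} : c ∈ root P v φ ↔ Tv P v (c • φ) := Iff.rfl

/-- `P` contains the `k`-root group of the flag `(v, φ)`. -/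
def Fl (P : Subgroup (GL ι F)) (k : Subfield F) (v φ : ι → F) : Prop :=
  v ≠ 0 ∧ φ ≠ 0 ∧ ∀ c ∈ k, Tv P v (c • φ)

namespace Fl

variable {k : Subfield F} {v φ u ψ : ι → F}

theorem tv (h : Fl P k v φ) : Tv P v φ := by simpa using h.2.2 1 k.one_mem

theorem dot (h : Fl P k v φ) : φ ⬝ᵥ v = 0 := h.tv.dot

theorem conj (h : Fl P k v φ) {g : GL ι F} (hg : g ∈ P) : Fl P k (g.1 *ᵥ v) (φ ᵥ* (g⁻¹).1) :=
  ⟨GL_mulVec_ne_zero g h.1, vecMul_inv_ne_zero g h.2.1, fun c hc => by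
    simpa only [smul_vecMul] using (h.2.2 c hc).conj hg⟩

theorem conj_tv (h : Fl P k v φ) (h' : Tv P u ψ) :
    Fl P k (v + (ψ ⬝ᵥ v) • u) (φ - (φ ⬝ᵥ u) • ψ) := by
  have := h.conj h'.2
  rwa [tvGL_mulVec, tvGL_inv, tvGL_coe, vecMul_add, vecMul_one, vecMul_vecMulVec, smul_neg,
    ← sub_eq_add_neg] at this

theorem smul (h : Fl P k v φ) {c : F} (hc : c ∈ k) (h0 : c ≠ 0) : Fl P k v (c • φ) :=
  ⟨h.1, smul_ne_zero h0 h.2.1, fun d hd => by rw [smul_smul]; exact h.2.2 _ (k.mul_mem hd hc)⟩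

theorem rescale (h : Fl P k v φ) {s : F} (h0 : s ≠ 0) : Fl P k (s • v) (s⁻¹ • φ) :=
  ⟨smul_ne_zero h0 h.1, smul_ne_zero (inv_ne_zero h0) h.2.1, fun d hd => by
    refine Tv.smul_swap' ?_ (by simp [h.dot])
    rw [smul_smul, smul_smul, mul_right_comm, mul_inv_cancel₀ h0, one_mul]
    exact h.2.2 d hd⟩

theorem add (h : Fl P k v φ) (h' : Fl P k v ψ) (h0 : φ + ψ ≠ 0) : Fl P k v (φ + ψ) :=
  ⟨h.1, h0, fun c hc => by rw [smul_add]; exact (h.2.2 c hc).add_right (h'.2.2 c hc)⟩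

theorem comm (h : Tv P v φ) (h' : Fl P k u ψ) (h1 : φ ⬝ᵥ u ≠ 0) (hv : v ≠ 0) (h0 : ψ ⬝ᵥ v = 0) :
    Fl P k v ((φ ⬝ᵥ u) • ψ) :=
  ⟨hv, smul_ne_zero h1 h'.2.1, fun c hc => by
    rw [smul_comm]; exact h.comm_right (h'.2.2 c hc) (by simp [h0])⟩

end Fl

theorem fl_bot [Finite F] {v φ : ι → F} (hv : v ≠ 0) (hφ : φ ≠ 0) (h : Tv P v φ) :
    Fl P ⊥ v φ := ⟨hv, hφ, fun c hc => by
  obtain ⟨p, _⟩ := CharP.exists F
  haveI : Fact p.Prime := ⟨CharP.char_is_prime F p⟩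
  obtain ⟨n, rfl⟩ := (mem_bot_iff_intCast p F).1 hc
  simpa [mem_root] using zsmul_mem (show (1 : F) ∈ root P v φ by simpa [mem_root] using h) n⟩

/-- `P` is irreducible and generated by `k`-root groups. -/
structure Fam0 (P : Subgroup (GL ι F)) (k : Subfield F) : Prop where
  ir : Ir P
  ex : ∃ v φ, Fl P k v φ
  gen : ∀ N : Subgroup (GL ι F), (∀ v φ, Fl P k v φ → Tv N v φ) → P ≤ N

/-- Moreover the `2`-cycles lie in `k`. -/
structure Fam (P : Subgroup (GL ι F)) (k : Subfield F) : Prop extends Fam0 P k where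
  two : ∀ {v φ u ψ}, Fl P k v φ → Fl P k u ψ → (φ ⬝ᵥ u) * (ψ ⬝ᵥ v) ∈ k

/-- No linear pairs. -/
def NL (P : Subgroup (GL ι F)) (k : Subfield F) : Prop :=
  ∀ {v φ u ψ}, Fl P k v φ → Fl P k u ψ → φ ⬝ᵥ u = 0 → ψ ⬝ᵥ v = 0

/-- All root groups have order two. -/
def R2 (P : Subgroup (GL ι F)) : Prop :=
  ∀ {v φ : ι → F} {c : F}, v ≠ 0 → φ ≠ 0 → Tv P v φ → Tv P v (c • φ) → c = 0 ∨ c = 1

/-- A transvection is determined by its centre and by its axis. -/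
structure Sg (P : Subgroup (GL ι F)) : Prop where
  cen : ∀ {v φ ψ : ι → F}, v ≠ 0 → φ ≠ 0 → ψ ≠ 0 → Tv P v φ → Tv P v ψ → ψ = φ
  ax : ∀ {v w φ : ι → F}, v ≠ 0 → w ≠ 0 → φ ≠ 0 → Tv P v φ → Tv P w φ → w = v

theorem Sg.nl (h : Sg P) {v φ u ψ : ι → F} (hφ : φ ≠ 0) (hu : u ≠ 0) (hψ : ψ ≠ 0) (h1 : Tv P v φ)
    (h2 : Tv P u ψ) (e : φ ⬝ᵥ u = 0) : ψ ⬝ᵥ v = 0 := by
  by_contra n
  have := congrArg (· ⬝ᵥ v) (h.cen hu hψ (smul_ne_zero n hφ) h2 (h2.comm_right h1 e))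
  exact n (by simpa [h1.dot] using this.symm)

theorem Hyp.fam0 (h : Hyp P) {k : Subfield F} {v φ : ι → F} (f : Fl P k v φ) : Fam0 P k := by
  refine ⟨ir_of_env h.env, ⟨v, φ, f⟩, fun N hN => ?_⟩
  let S : Set (GL ι F) := {g | ∃ v φ h, Fl P k v φ ∧ g = tvGL v φ h}
  have hS : Subgroup.closure S ≤ P := (Subgroup.closure_le _).2 (by
    rintro _ ⟨v, φ, _, f, rfl⟩; exact f.tv.2)
  refine (h.nrm _ hS (fun g hg x hx => ?_) fun hle => ?_).trans
    ((Subgroup.closure_le _).2 (by rintro _ ⟨v, φ, h, f, rfl⟩; exact (hN v φ f).2))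
  · induction hx using Subgroup.closure_induction with
    | mem x hx =>
      obtain ⟨v, φ, h, f, rfl⟩ := hx
      exact Subgroup.subset_closure ⟨_, _, _, f.conj hg, conj_tvGL g v φ h⟩
    | one => simp
    | mul x y _ _ hx hy => simpa [mul_assoc] using mul_mem hx hy
    | inv x _ hx => simpa [mul_assoc] using inv_mem hx
  · obtain ⟨c, hc⟩ := (mem_scalars_iff _).1 (hle (Subgroup.subset_closure ⟨_, _, f.dot, f, rfl⟩))
    obtain ⟨x, hx⟩ := exists_dot_eq_one f.2.1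
    have t1 := tvGL_mulVec _ _ f.dot v
    have t2 := tvGL_mulVec _ _ f.dot x
    rw [hc, smul_mulVec, one_mulVec] at t1 t2
    rw [f.dot, zero_smul, add_zero] at t1
    rw [smul_left_injective F f.1 (t1.trans (one_smul F v).symm), one_smul, left_eq_add,
      dotProduct_comm, hx, one_smul] at t2
    exact f.1 t2

/-- `g ↦ 1 + A (g - 1) B` for `B A = 1`: the group of a direct summand. -/
def emb {κ : Type} [Fintype κ] [DecidableEq κ] (A : Matrix ι κ F) (B : Matrix κ ι F)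
    (h : B * A = 1) : GL κ F →* GL ι F := MonoidHom.toHomUnits
  { toFun := fun g => 1 + A * (g.1 - 1) * B
    map_one' := by simp
    map_mul' := fun g g' => by
      have : A * (g.1 - 1) * B * (A * (g'.1 - 1) * B) = A * ((g.1 - 1) * (g'.1 - 1)) * B := by
        simp only [Matrix.mul_assoc]
        rw [← Matrix.mul_assoc B A, h, Matrix.one_mul]
      rw [add_mul, mul_add, mul_add, this, Units.val_mul,
        show g.1 * g'.1 - 1 = (g'.1 - 1) + ((g.1 - 1) + (g.1 - 1) * (g'.1 - 1)) by noncomm_ring]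
      simp only [Matrix.mul_add, Matrix.add_mul, one_mul, mul_one, add_assoc] }

section Emb

variable {κ : Type} [Fintype κ] [DecidableEq κ] {A : Matrix ι κ F} {B : Matrix κ ι F}
  (h : B * A = 1)

theorem emb_val (g : GL κ F) : (emb A B h g).1 = 1 + A * (g.1 - 1) * B := rfl

theorem emb_injective : Function.Injective (emb A B h) := fun g g' e => by
  have := congrArg (fun x : GL ι F => B * (x.1 - 1) * A) e
  simp only [emb_val, add_sub_cancel_left, Matrix.mul_assoc, h, Matrix.mul_one] at this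
  rw [← Matrix.mul_assoc, ← Matrix.mul_assoc, h, Matrix.one_mul, Matrix.one_mul] at this
  exact Units.ext (sub_left_injective this)

include h in
theorem emb_dot (φ v : κ → F) : (φ ᵥ* B) ⬝ᵥ (A *ᵥ v) = φ ⬝ᵥ v := by
  rw [← dotProduct_mulVec, mulVec_mulVec, h, one_mulVec]

theorem emb_tv {v φ : κ → F} : Tv (P.comap (emb A B h)) v φ ↔ Tv P (A *ᵥ v) (φ ᵥ* B) := by
  have key : ∀ h0 : φ ⬝ᵥ v = 0, emb A B h (tvGL v φ h0) =
      tvGL (A *ᵥ v) (φ ᵥ* B) ((emb_dot h φ v).trans h0) := fun h0 => Units.ext (by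
    rw [emb_val, tvGL_coe, tvGL_coe, add_sub_cancel_left, mul_vecMulVec, vecMulVec_mul])
  exact ⟨fun ⟨h0, e⟩ => ⟨_, key h0 ▸ Subgroup.mem_comap.1 e⟩,
    fun ⟨h0, e⟩ => ⟨(emb_dot h φ v).symm.trans h0, by rwa [Subgroup.mem_comap, key]⟩⟩

end Emb

end Cfsg.Lib.TVn
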